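import Mathlib
import Cfsg.Agent.Lib.L3E.Defs

theorem CfsgLib.Auto.CfsgLib_L3E_xg_eq_3 : type_of% @CfsgLib.L3E.xg.eq_3 := @CfsgLib.L3E.xg.eq_3
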