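import Mathlib
import Cfsg.Agent.Lib.LieM.Eigen

theorem CfsgLib.Auto.CfsgLib_LieM_lcsA_eq_def : type_of% @CfsgLib.LieM.lcsA.eq_def := @CfsgLib.LieM.lcsA.eq_def
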