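import Mathlib
import Cfsg.Prelude.Def_PLocal

theorem CfsgLib.Auto.Cfsg_iterCommutator_eq_def : type_of% @Cfsg.iterCommutator.eq_def := @Cfsg.iterCommutator.eq_def
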